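import Cfsg.Agent.H18.HT.Dbl
import Cfsg.Agent.H160.HT.Mu
import Cfsg.Agent.H501.HT.HX
import Cfsg.Agent.H992.HT.Pair
import Cfsg.Agent.H618.HT.Kappa

/-!
# S4933, unitary primes: the trace lemma for the double frame (helper18, box M3)

`hc_pair_vd` : `R = R_L^G(c ⊗ χ) = X₁ + X₂`, `R₀ = R_{GL_b}^{G_b}(c) = Y₁ + Y₂`, `p ∤ Y₁(1), Y₂(1)`:
`v_p(X_i(1)) + v_p |Om_b(F₂)| = v_p(χ(1)) + v_p |Om_b(F)|`.
-/

set_option autoImplicit false
set_option linter.style.haveILetI false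

open scoped ComplexConjugate
open Cfsg

namespace Cfsg.Agent.H18.HT

open Module MulAction Cfsg.Agent.H53.HC Cfsg.Agent.H477.HC Cfsg.Agent.H749.Two Cfsg.Agent.Characters
  Cfsg.Agent.H279.Dl

universe u v w w'

/-- **Frobenius reciprocity** for the permutation character -/
theorem inner_stab {H : Type*} [Group H] [Fintype H] {Y : Type*} [MulAction H Y] [Finite Y]
    (htr : ∀ y y' : Y, ∃ g : H, g • y = y') (y₀ : Y) {χ : H → ℂ} (hχ : IsClassFunction H χ) (S : Subgroup H)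
    (hS : ∀ g : H, g ∈ S ↔ g • y₀ = y₀) [Fintype S]
    (h1 : classInner (fun g => (Nat.card {y : Y // g • y = y} : ℂ)) χ = 1) :
    classInner (fun s : S => χ s) (fun _ => 1) = 1 := by
  classical
  have hSe : S = stabilizer H y₀ := by
    ext g
    rw [hS, mem_stabilizer_iff]
  subst hSe
  have hf : IsClassFunction H fun g => conj (χ g) := fun g x => congrArg conj (hχ g x)
  have e1 := H501.HT.sum_fix htr y₀ hf
  have hcard : Nat.card H = Nat.card Y * Nat.card (stabilizer H y₀) := by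
    have h2 : Nat.card (orbit H y₀) = Nat.card Y := by
      refine Nat.card_congr (Equiv.subtypeUnivEquiv fun y => ?_)
      obtain ⟨g, hg⟩ := htr y₀ y
      exact ⟨g, hg⟩
    rw [← h2, ← Nat.card_prod]
    exact Nat.card_congr (orbitProdStabilizerEquivGroup H y₀).symm
  have hY0 : (Nat.card Y : ℂ) ≠ 0 := by
    have : Nonempty Y := ⟨y₀⟩
    exact_mod_cast Nat.card_pos.ne'
  have hS0 : (Nat.card (stabilizer H y₀) : ℂ) ≠ 0 := Core.card_ne_zero_complex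
  rw [Core.classInner_def] at h1
  have e2 : ∑ g : H, (Nat.card {y : Y // g • y = y} : ℂ) * conj (χ g) =
      ∑ g : H, conj (χ g) * (Nat.card {y : Y // g • y = y} : ℂ) :=
    Finset.sum_congr rfl fun g _ => mul_comm _ _
  rw [e2, e1, hcard, Nat.cast_mul] at h1
  have h3 : ∑ x : stabilizer H y₀, conj (χ x) = (Nat.card (stabilizer H y₀) : ℂ) := by
    field_simp at h1
    exact h1
  have h4 := congrArg conj h3
  rw [map_sum, Complex.conj_natCast] at h4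
  have h5 : ∑ x : stabilizer H y₀, conj (conj (χ x)) = ∑ x : stabilizer H y₀, χ x :=
    Finset.sum_congr rfl fun x _ => Complex.conj_conj _
  rw [h5] at h4
  rw [Core.classInner_def]
  have h6 : ∑ s : stabilizer H y₀, χ s * conj 1 = ∑ s : stabilizer H y₀, χ s :=
    Finset.sum_congr rfl fun x _ => by rw [map_one, mul_one]
  rw [h6, h4, inv_mul_cancel₀ hS0]

variable {K : Type u} [Field K] {V : Type v} [AddCommGroup V] [Module K V] {X' : Type w} [AddCommGroup X']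
  [Module K X'] {X₂ : Type w'} [AddCommGroup X₂] [Module K X₂]
variable {F : CForm K V} {F' : CForm K X'} {F₂ : CForm K X₂} {j : X' →ₗ[K] V} {j₂ : X₂ →ₗ[K] V}
  {W₀ Z₀ : Submodule K V} {W₂ : Submodule K X₂} {Z' : Submodule K X'} {b k : ℕ}

theorem flagTerm_one [FiniteDimensional K V] {c : GL (Fin b) K → ℂ} (hc : IsClassFunction _ c) (hW₀ : W₀ ∈ F.Om b)
    {g : F.iso} (hg : g = 1) : flagTerm F.iso.subtype c g W₀ = c 1 := by
  subst hg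
  have h : W₀.map (F.iso.subtype 1 : V →ₗ[K] V) = W₀ := Submodule.map_id _
  rw [flagTerm_of F.iso.subtype c h]
  have e2 : res (F.iso.subtype 1) W₀ h = 1 := by
    ext w
    rfl
  rw [e2, cl_one hc (finBasisOfFinrankEq K W₀ hW₀.2)]

/-- the inner product of an irreducible character with a sum of two -/
theorem inner_add {G : Type*} [Group G] [Fintype G] [DecidableEq (IrrCharacter G)] (X X₁ X₂ : IrrCharacter G) :
    classInner (X : G → ℂ) (fun g => (X₁ : G → ℂ) g + (X₂ : G → ℂ) g) =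
      (if X = X₁ then 1 else 0) + if X = X₂ then 1 else 0 := by
  have h : ∀ A B : IrrCharacter G, classInner (A : G → ℂ) (B : G → ℂ) = if A = B then 1 else 0 := by
    intro A B
    split_ifs with hAB
    · rw [hAB]; exact Core.classInner_irr_self B.2
    · exact Core.classInner_irr_ne A.2 B.2 fun e => hAB (Subtype.ext e)
  have e : (fun g => (X₁ : G → ℂ) g + (X₂ : G → ℂ) g) = (X₁ : G → ℂ) + (X₂ : G → ℂ) := rfl
  rw [e, Core.classInner_add_right, h, h]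

/-- **M3** -/
theorem hc_pair_vd [Finite K] [FiniteDimensional K V] [Finite V] [FiniteDimensional K X'] [Finite X']
    [FiniteDimensional K X₂] [Finite X₂] [Fintype F.iso] [Fintype F'.iso] [Fintype F₂.iso]
    [Fintype (F.Om b)] [Fintype (F₂.Om b)] (h : Dbl F F' F₂ j j₂ W₀ Z₀ W₂ Z' b k) (hb : 2 ≤ b)
    (c : IrrCharacter (GL (Fin b) K)) (hcusp : IsCusp (c : GL (Fin b) K → ℂ))
    {ρ : stabW F.iso.subtype W₀ →* F'.iso}
    (hρ1 : ∀ (g : stabW F.iso.subtype W₀) x, ((g : F.iso) : V ≃ₗ[K] V) (j x) - j ((ρ g : X' ≃ₗ[K] X') x) ∈ W₀)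
    (hρ2 : ∀ g : stabW F.iso.subtype W₀, (g : F.iso) ∈ F.TT W₀ → ρ g = 1)
    (hρ3 : ∀ (a : W₀ ≃ₗ[K] W₀) (b : F'.iso), ∃ g : stabW F.iso.subtype W₀, ρ g = b ∧
        ∀ w : W₀, ((g : F.iso) : V ≃ₗ[K] V) w = a w)
    {Y : Type*} [MulAction F'.iso Y] [Finite Y] (htr : ∀ y y' : Y, ∃ g : F'.iso, g • y = y')
    (s : Y → Submodule K X')
    (hs : ∀ (g : F'.iso) y, g • y = y ↔ (s y).map (F'.iso.subtype g : X' →ₗ[K] X') = s y) (y₀ : Y) (hy₀ : s y₀ = Z')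
    (hN : ∀ χ₁ χ₂ : IrrCharacter F'.iso,
      classInner (fun g => (Nat.card {y : Y // g • y = y} : ℂ)) (χ₁ : F'.iso → ℂ) ≠ 0 →
      classInner (fun g => (Nat.card {y : Y // g • y = y} : ℂ)) (χ₂ : F'.iso → ℂ) ≠ 0 →
      classInner (F.hc (c : GL (Fin b) K → ℂ) (psf F W₀ ((χ₁ : F'.iso → ℂ) ∘ ρ)))
        (F.hc (c : GL (Fin b) K → ℂ) (psf F W₀ ((χ₂ : F'.iso → ℂ) ∘ ρ))) = if χ₁ = χ₂ then 2 else 0)
    (χ : IrrCharacter F'.iso)
    (hχ : classInner (fun g => (Nat.card {y : Y // g • y = y} : ℂ)) (χ : F'.iso → ℂ) = 1)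
    (Y₁ Y₂ : IrrCharacter F₂.iso) (hYne : Y₁ ≠ Y₂)
    (hYs : F₂.hc (c : GL (Fin b) K → ℂ) (fun _ _ => 1) = fun g => (Y₁ : F₂.iso → ℂ) g + (Y₂ : F₂.iso → ℂ) g)
    (X₁ X₂' : IrrCharacter F.iso) (hXne : X₁ ≠ X₂')
    (hXs : F.hc (c : GL (Fin b) K → ℂ) (psf F W₀ ((χ : F'.iso → ℂ) ∘ ρ)) =
      fun g => (X₁ : F.iso → ℂ) g + (X₂' : F.iso → ℂ) g)
    {p : ℕ} (hp1 : ¬ p ∣ charDegree (Y₁ : F₂.iso → ℂ)) (hp2 : ¬ p ∣ charDegree (Y₂ : F₂.iso → ℂ))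
    (X : IrrCharacter F.iso) (hX : X = X₁ ∨ X = X₂') :
    H316.HT.vd p (X : F.iso → ℂ) + (Nat.card (F₂.Om b)).factorization p =
      H316.HT.vd p (χ : F'.iso → ℂ) + (Nat.card (F.Om b)).factorization p := by
  classical
  obtain ⟨κ, hκ1, hκ⟩ := H618.HT.exists_kappa hb c.2 hcusp h.ts (le_sup_left : W₀ ≤ W₀ ⊔ Z₀) h.W₀_mem.2
  obtain ⟨ρ₂, hσ1, hσ2, hσ3⟩ := h.cmp₂.exists_rho
  have hcl := Core.isIrr_isClassFunction c.2
  let bas : Basis (Fin b) K W₀ := finBasisOfFinrankEq K W₀ h.W₀_mem.2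
  have hLam1 : W₀ ⊔ Z₀ = W₀ ⊔ Z'.map j := by rw [h.Z'_map]
  have hLam2 : W₀ ⊔ Z₀ = Z₀ ⊔ W₂.map j₂ := by rw [h.W₂_map, sup_comm]
  have hLam3 : W₀ ⊔ Z₀ = Z₀ ⊔ W₀ := sup_comm _ _
  letI : Fintype (stabW F.iso.subtype W₀) := Fintype.ofFinite _
  letI : Fintype (stabW F.iso.subtype Z₀) := Fintype.ofFinite _
  letI : Fintype (stabW F.iso.subtype (W₀ ⊔ Z₀)) := Fintype.ofFinite _
  letI : Fintype ↥(stabW F.iso.subtype W₀ ⊓ stabW F.iso.subtype (W₀ ⊔ Z₀)) := Fintype.ofFinite _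
  letI : Fintype ↥(stabW F.iso.subtype Z₀ ⊓ stabW F.iso.subtype (W₀ ⊔ Z₀)) := Fintype.ofFinite _
  letI : Fintype ↥((stabW F.iso.subtype W₀ ⊓ stabW F.iso.subtype (W₀ ⊔ Z₀)) ⊓
    (stabW F.iso.subtype Z₀ ⊓ stabW F.iso.subtype (W₀ ⊔ Z₀))) := Fintype.ofFinite _
  letI : Fintype (stabW F'.iso.subtype Z') := Fintype.ofFinite _
  letI : Fintype (stabW F₂.iso.subtype W₂) := Fintype.ofFinite _
  let μ₁ : IrrCharacter ↥(stabW F.iso.subtype W₀ ⊓ stabW F.iso.subtype (W₀ ⊔ Z₀)) :=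
    ⟨_, H160.HT.Mu.isIrr_mu h.cmp hρ1 c.2 bas hρ3 hLam1⟩
  let μ₂ : IrrCharacter ↥(stabW F.iso.subtype Z₀ ⊓ stabW F.iso.subtype (W₀ ⊔ Z₀)) :=
    ⟨_, H160.HT.Mu.isIrr_mu₂ h.cmp₂ hσ1 hσ3 h.W₂_mem c.2 hLam2⟩
  let ν : IrrCharacter ↥((stabW F.iso.subtype W₀ ⊓ stabW F.iso.subtype (W₀ ⊔ Z₀)) ⊓
      (stabW F.iso.subtype Z₀ ⊓ stabW F.iso.subtype (W₀ ⊔ Z₀))) :=
    ⟨_, H160.HT.Mu.isIrr_nu h.cmp₂ h.W₂_mem.1 h.W₂_map.symm h.W₀_mem c.2 rfl⟩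
  let ψ : IrrCharacter (stabW F.iso.subtype W₀) := ⟨_, H160.HT.Mu.isIrr_psi c.2 bas hρ3 χ.2⟩
  let y₁ : IrrCharacter (stabW F.iso.subtype Z₀) := ⟨_, H160.HT.Mu.isIrr_comp_rho hσ3 Y₁.2⟩
  let y₂ : IrrCharacter (stabW F.iso.subtype Z₀) := ⟨_, H160.HT.Mu.isIrr_comp_rho hσ3 Y₂.2⟩
  -- values at `1`
  have m1 : (μ₁ : ↥(stabW F.iso.subtype W₀ ⊓ stabW F.iso.subtype (W₀ ⊔ Z₀)) → ℂ) 1 =
      (c : GL (Fin b) K → ℂ) 1 := flagTerm_one hcl h.W₀_mem rfl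
  have m2 : (μ₂ : ↥(stabW F.iso.subtype Z₀ ⊓ stabW F.iso.subtype (W₀ ⊔ Z₀)) → ℂ) 1 =
      (c : GL (Fin b) K → ℂ) 1 := flagTerm_one hcl h.W₂_mem (map_one ρ₂)
  have p1 : (ψ : stabW F.iso.subtype W₀ → ℂ) 1 = (c : GL (Fin b) K → ℂ) 1 * (χ : F'.iso → ℂ) 1 := by
    change flagTerm F.iso.subtype (c : GL (Fin b) K → ℂ) (1 : F.iso) W₀ * (χ : F'.iso → ℂ) (ρ 1) = _
    rw [flagTerm_one hcl h.W₀_mem rfl, map_one]
  -- Frobenius
  have hΨ : Psi F b (psf F W₀ ((χ : F'.iso → ℂ) ∘ ρ)) := Psi.psf h.W₀_mem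
    (Core.isCharacter_comp ρ (Core.isIrr_isCharacter χ.2)) (fun g hg => by
      rw [Function.comp_apply, Function.comp_apply, hρ2 g hg, map_one])
  have hfrob : ∀ X : IrrCharacter F.iso, classInner (fun x : stabW F.iso.subtype W₀ => (X : F.iso → ℂ) x)
      (ψ : stabW F.iso.subtype W₀ → ℂ) =
        classInner (X : F.iso → ℂ) (F.hc (c : GL (Fin b) K → ℂ) (psf F W₀ ((χ : F'.iso → ℂ) ∘ ρ))) := by
    intro X
    have e1 := H501.HT.hc_frob hcl hΨ.cj h.W₀_mem (Core.isIrr_isClassFunction X.2)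
    have e2 := congrArg conj e1
    rw [Core.classInner_conj_symm, Core.classInner_conj_symm] at e2
    rw [e2]
    congr 1
    funext g
    rw [psf_self (Core.isCharacter_isClassFunction (Core.isCharacter_comp ρ (Core.isIrr_isCharacter χ.2)))]
    rfl
  have hset : ∀ X : IrrCharacter F.iso, classInner (fun x : stabW F.iso.subtype W₀ => (X : F.iso → ℂ) x)
      (ψ : stabW F.iso.subtype W₀ → ℂ) ≠ 0 ↔ X = X₁ ∨ X = X₂' := by
    intro X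
    rw [hfrob, hXs, inner_add]
    by_cases h1 : X = X₁
    · simp [h1, hXne]
    · by_cases h2 : X = X₂'
      · simp [h2, Ne.symm hXne]
      · simp [h1, h2]
  have hdeg : ((X₁ : F.iso → ℂ) 1 + (X₂' : F.iso → ℂ) 1) * Nat.card (stabW F.iso.subtype W₀) =
      Nat.card F.iso * (ψ : stabW F.iso.subtype W₀ → ℂ) 1 := by
    have e1 := congrFun hXs 1
    have e2 : ∀ W ∈ F.Om b, psf F W₀ ((χ : F'.iso → ℂ) ∘ ρ) 1 W = (χ : F'.iso → ℂ) 1 := by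
      intro W hW
      obtain ⟨x, hx⟩ := F.trans_Om h.W₀_mem hW
      have h2 : x⁻¹ * 1 * x ∈ stabW F.iso.subtype W₀ := by
        rw [mul_one, inv_mul_cancel]; exact Subgroup.one_mem _
      rw [psf_eq (Core.isCharacter_isClassFunction (Core.isCharacter_comp ρ (Core.isIrr_isCharacter χ.2))) hx h2,
        Function.comp_apply]
      congr 1
      have : (⟨x⁻¹ * 1 * x, h2⟩ : stabW F.iso.subtype W₀) = 1 := Subtype.ext (by
        change x⁻¹ * 1 * x = 1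
        group)
      rw [this, map_one]
    rw [F.hc_one hcl _ e2] at e1
    rw [← e1, F.card_iso_eq h.W₀_mem, p1]
    push_cast
    ring
  -- `R₀`
  have hy₁ : classInner (fun x : ↥(stabW F.iso.subtype Z₀ ⊓ stabW F.iso.subtype (W₀ ⊔ Z₀)) =>
      (y₁ : stabW F.iso.subtype Z₀ → ℂ) ⟨x, x.2.1⟩)
        (μ₂ : ↥(stabW F.iso.subtype Z₀ ⊓ stabW F.iso.subtype (W₀ ⊔ Z₀)) → ℂ) = 1 := by
    have e0 := H160.HT.Mu.classInner_y_mu₂ h.cmp₂ hσ1 hσ3 hLam2 (Y₁ : F₂.iso → ℂ) (c : GL (Fin b) K → ℂ)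
    have e1 := H501.HT.hc_frob (F := F₂) (ψ := fun _ _ => (1 : ℂ)) hcl (fun _ _ _ => rfl) h.W₂_mem
      (Core.isIrr_isClassFunction Y₁.2)
    have e2 := congrArg conj e1
    rw [Core.classInner_conj_symm, Core.classInner_conj_symm, hYs, inner_add] at e2
    refine e0.trans ?_
    have e3 : (fun g : stabW F₂.iso.subtype W₂ => flagTerm F₂.iso.subtype (c : GL (Fin b) K → ℂ) g W₂ * (1 : ℂ)) =
        fun g : stabW F₂.iso.subtype W₂ => flagTerm F₂.iso.subtype (c : GL (Fin b) K → ℂ) g W₂ := by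
      funext g
      rw [mul_one]
    rw [e3] at e2
    rw [← e2, if_pos rfl, if_neg hYne, add_zero]
  have hM := H160.HT.Mu.card_stab h.cmp₂ hσ1 hσ3 h.W₂_mem hLam2
  have hY : ((y₁ : stabW F.iso.subtype Z₀ → ℂ) 1 + (y₂ : stabW F.iso.subtype Z₀ → ℂ) 1) *
      Nat.card ↥(stabW F.iso.subtype Z₀ ⊓ stabW F.iso.subtype (W₀ ⊔ Z₀)) =
        Nat.card (stabW F.iso.subtype Z₀) *
          (μ₂ : ↥(stabW F.iso.subtype Z₀ ⊓ stabW F.iso.subtype (W₀ ⊔ Z₀)) → ℂ) 1 := by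
    have e1 := congrFun hYs 1
    rw [F₂.hc_one hcl (fun _ _ => 1) (fun _ _ => rfl)] at e1
    have e2 : (y₁ : stabW F.iso.subtype Z₀ → ℂ) 1 = (Y₁ : F₂.iso → ℂ) 1 := by
      change (Y₁ : F₂.iso → ℂ) (ρ₂ 1) = _
      rw [map_one]
    have e3 : (y₂ : stabW F.iso.subtype Z₀ → ℂ) 1 = (Y₂ : F₂.iso → ℂ) 1 := by
      change (Y₂ : F₂.iso → ℂ) (ρ₂ 1) = _
      rw [map_one]
    rw [e2, e3, ← e1, m2, hM]
    push_cast
    ring
  -- `ψ`
  have hψ : classInner (fun x : ↥(stabW F.iso.subtype W₀ ⊓ stabW F.iso.subtype (W₀ ⊔ Z₀)) =>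
      (ψ : stabW F.iso.subtype W₀ → ℂ) ⟨x, x.2.1⟩)
        (μ₁ : ↥(stabW F.iso.subtype W₀ ⊓ stabW F.iso.subtype (W₀ ⊔ Z₀)) → ℂ) = 1 := by
    have e0 := H160.HT.Mu.classInner_psi_mu h.cmp hρ1 c.2 bas hρ3 hLam1 (χ : F'.iso → ℂ)
    refine e0.trans (inner_stab htr y₀ (Core.isIrr_isClassFunction χ.2) _ (fun g => ?_) hχ)
    rw [hs, hy₀]
    rfl
  have hdY₁ : charDegree (y₁ : stabW F.iso.subtype Z₀ → ℂ) = charDegree (Y₁ : F₂.iso → ℂ) := by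
    unfold charDegree
    change ⌊((Y₁ : F₂.iso → ℂ) (ρ₂ 1)).re⌋₊ = _
    rw [map_one]
  have hdY₂ : charDegree (y₂ : stabW F.iso.subtype Z₀ → ℂ) = charDegree (Y₂ : F₂.iso → ℂ) := by
    unfold charDegree
    change ⌊((Y₂ : F₂.iso → ℂ) (ρ₂ 1)).re⌋₊ = _
    rw [map_one]
  exact H992.HT.pair_vd (stabW F.iso.subtype W₀) (stabW F.iso.subtype Z₀)
    (stabW F.iso.subtype W₀ ⊓ stabW F.iso.subtype (W₀ ⊔ Z₀)) (stabW F.iso.subtype Z₀ ⊓ stabW F.iso.subtype (W₀ ⊔ Z₀))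
    (stabW F.iso.subtype (W₀ ⊔ Z₀)) inf_le_left inf_le_left inf_le_right inf_le_right
    (H160.HT.Mu.inf_le_inf rfl) h.card_inf μ₁ μ₂ ν (fun _ => rfl)
    (fun d => H160.HT.Mu.mu_eq_nu h.cmp₂ hσ1 hcl h.W₂_map.symm hLam3 d) κ hκ (by rw [m1]; exact hκ1) ψ hψ y₁ y₂ hy₁ hY
    (fun X hX => H501.HT.hX_hc h.cmp h.W₀_mem c hρ1 hρ2 (fun b => by
      obtain ⟨g, hg, -⟩ := hρ3 1 b
      exact ⟨g, hg⟩) htr s hs y₀ (by rw [hy₀, h.Z'_map]) hN χ hχ X hX)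
    X₁ X₂' hXne hset hdeg (by rw [hdY₁]; exact hp1) (by rw [hdY₂]; exact hp2)
    (by rw [F.card_iso_eq h.W₀_mem, mul_comm]) hM (H992.HT.charDegree_ne_zero χ)
    (by rw [p1, m2, H992.HT.cast_charDegree]) X hX

end Cfsg.Agent.H18.HT
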